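import Cfsg.Agent.H141.Rg.Defs

/-!
# S5714, task X7: conjugates of a subgroup, invariance of `Adj`, `Lev`, `LRG`
-/

set_option autoImplicit false

namespace Cfsg.Agent.H753.Rg

open Cfsg.Agent.H141.Rg

universe u v

variable {G : Type u} [Group G]

theorem mem_cj {X : Subgroup G} {g x : G} : x ∈ cj X g ↔ g⁻¹ * x * g ∈ X := by
  constructor
  · rintro ⟨y, hy, rfl⟩
    have : g⁻¹ * (g * y * g⁻¹) * g = y := by group
    show g⁻¹ * (g * y * g⁻¹) * g ∈ X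
    rwa [this]
  · intro h
    refine ⟨_, h, ?_⟩
    show g * (g⁻¹ * x * g) * g⁻¹ = x
    group

theorem conj_mem_cj {X : Subgroup G} {g x : G} (hx : x ∈ X) : g * x * g⁻¹ ∈ cj X g := ⟨x, hx, rfl⟩

theorem cj_cj (X : Subgroup G) (g h : G) : cj (cj X h) g = cj X (g * h) := by
  ext x
  rw [mem_cj, mem_cj, mem_cj]
  have : h⁻¹ * (g⁻¹ * x * g) * h = (g * h)⁻¹ * x * (g * h) := by group
  rw [this]

theorem cj_one (X : Subgroup G) : cj X 1 = X := by
  ext x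
  rw [mem_cj, inv_one, one_mul, mul_one]

theorem cj_inj {X Y : Subgroup G} {g : G} (h : cj X g = cj Y g) : X = Y := by
  have := congrArg (fun Z => cj Z g⁻¹) h
  simpa only [cj_cj, inv_mul_cancel, cj_one] using this

theorem card_cj (X : Subgroup G) (g : G) : Nat.card (cj X g) = Nat.card X :=
  Nat.card_congr (X.equivMapOfInjective _ (MulAut.conj g).injective).toEquiv.symm

theorem cj_bot (g : G) : cj (⊥ : Subgroup G) g = ⊥ := Subgroup.map_bot _

theorem cj_inf (A B : Subgroup G) (g : G) : cj A g ⊓ cj B g = cj (A ⊓ B) g := by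
  ext x
  rw [Subgroup.mem_inf, mem_cj, mem_cj, mem_cj, Subgroup.mem_inf]

theorem cj_mono {A B : Subgroup G} (h : A ≤ B) (g : G) : cj A g ≤ cj B g := Subgroup.map_mono h

theorem adj_conj {X A B : Subgroup G} (h : Adj X A B) (g : G) :
    Adj X (cj A g) (cj B g) := by
  classical
  obtain ⟨S, Q, hA, hB, h1, h2, h3, h4, h5⟩ := h
  refine ⟨S.image (fun C => cj C g), cj Q g, Finset.mem_image_of_mem _ hA, Finset.mem_image_of_mem _ hB, ?_, ?_, ?_, ?_,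
    ?_⟩
  · intro C hC
    obtain ⟨D, hD, rfl⟩ := Finset.mem_image.1 hC
    obtain ⟨k, rfl⟩ := h1 D hD
    exact ⟨g * k, cj_cj _ _ _⟩
  · rw [Finset.card_image_of_injective _ (fun _ _ h => cj_inj h), h2]
  · intro C hC D hD hne
    obtain ⟨C, hC', rfl⟩ := Finset.mem_image.1 hC
    obtain ⟨D, hD', rfl⟩ := Finset.mem_image.1 hD
    rw [cj_inf, h3 C hC' D hD' (fun h => hne (by rw [h])), cj_bot]
  · intro C hC
    obtain ⟨D, hD, rfl⟩ := Finset.mem_image.1 hC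
    exact cj_mono (h4 D hD) g
  · rw [card_cj, h5]

theorem lev_conj {X : Subgroup G} {z : G} (h : Lev X z) (g : G) :
    Lev X (g * z * g⁻¹) := by
  obtain ⟨Y, k, hm, hi, hs⟩ := h
  have key : ∀ w, (g * z * g⁻¹) * (g * w * g⁻¹) * (g * z * g⁻¹)⁻¹ * (g * w * g⁻¹)⁻¹ =
      g * (z * w * z⁻¹ * w⁻¹) * g⁻¹ := fun w => by group
  refine ⟨cj Y g, g * k, ?_, ?_, ?_⟩
  · rintro _ ⟨w, hw, rfl⟩
    show (g * z * g⁻¹) * (g * w * g⁻¹) * (g * z * g⁻¹)⁻¹ * (g * w * g⁻¹)⁻¹ ∈ cj X (g * k)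
    rw [key, ← cj_cj]
    exact conj_mem_cj (hm hw)
  · rintro _ ⟨w, hw, rfl⟩ _ ⟨w', hw', rfl⟩ he
    have he' : (g * z * g⁻¹) * (g * w * g⁻¹) * (g * z * g⁻¹)⁻¹ * (g * w * g⁻¹)⁻¹ =
      (g * z * g⁻¹) * (g * w' * g⁻¹) * (g * z * g⁻¹)⁻¹ * (g * w' * g⁻¹)⁻¹ := he
    rw [key, key] at he'
    have := hi hw hw' (mul_left_cancel (mul_right_cancel he'))
    rw [this]
  · intro x hx
    rw [SetLike.mem_coe, ← cj_cj, mem_cj] at hx
    obtain ⟨w, hw, he⟩ := hs hx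
    refine ⟨g * w * g⁻¹, conj_mem_cj hw, ?_⟩
    show (g * z * g⁻¹) * (g * w * g⁻¹) * (g * z * g⁻¹)⁻¹ * (g * w * g⁻¹)⁻¹ = x
    have he' : z * w * z⁻¹ * w⁻¹ = g⁻¹ * x * g := he
    rw [key, he']
    group

/-! ### isomorphisms -/

variable {H : Type v} [Group H]

theorem map_cj (e : G ≃* H) (X : Subgroup G) (g : G) :
    (cj X g).map e.toMonoidHom = cj (X.map e.toMonoidHom) (e g) := by
  ext x
  constructor
  · rintro ⟨_, ⟨y, hy, rfl⟩, rfl⟩
    refine ⟨e y, ⟨y, hy, rfl⟩, ?_⟩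
    show e g * e y * (e g)⁻¹ = e (g * y * g⁻¹)
    rw [map_mul, map_mul, map_inv]
  · rintro ⟨_, ⟨y, hy, rfl⟩, rfl⟩
    refine ⟨g * y * g⁻¹, ⟨y, hy, rfl⟩, ?_⟩
    show e (g * y * g⁻¹) = e g * e y * (e g)⁻¹
    rw [map_mul, map_mul, map_inv]

theorem card_map (e : G ≃* H) (X : Subgroup G) : Nat.card (X.map e.toMonoidHom) = Nat.card X :=
  Nat.card_congr (X.equivMapOfInjective _ e.injective).toEquiv.symm

theorem map_inj (e : G ≃* H) : Function.Injective (Subgroup.map e.toMonoidHom) :=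
  Subgroup.map_injective e.injective

theorem adj_map {X A B : Subgroup G} (h : Adj X A B) (e : G ≃* H) :
    Adj (X.map e.toMonoidHom) (A.map e.toMonoidHom) (B.map e.toMonoidHom) := by
  classical
  obtain ⟨S, Q, hA, hB, h1, h2, h3, h4, h5⟩ := h
  refine ⟨S.image (fun C => C.map e.toMonoidHom), Q.map e.toMonoidHom, Finset.mem_image_of_mem _ hA,
    Finset.mem_image_of_mem _ hB, ?_, ?_, ?_, ?_, ?_⟩
  · intro C hC
    obtain ⟨D, hD, rfl⟩ := Finset.mem_image.1 hC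
    obtain ⟨k, rfl⟩ := h1 D hD
    exact ⟨e k, map_cj _ _ _⟩
  · rw [Finset.card_image_of_injective _ (map_inj e), h2, card_map]
  · intro C hC D hD hne
    obtain ⟨C, hC', rfl⟩ := Finset.mem_image.1 hC
    obtain ⟨D, hD', rfl⟩ := Finset.mem_image.1 hD
    rw [← Subgroup.map_inf _ _ _ e.injective, h3 C hC' D hD' (fun h => hne (by rw [h])), Subgroup.map_bot]
  · intro C hC
    obtain ⟨D, hD, rfl⟩ := Finset.mem_image.1 hC
    exact Subgroup.map_mono (h4 D hD)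
  · rw [card_map, card_map, h5]

theorem lev_map {X : Subgroup G} {z : G} (h : Lev X z) (e : G ≃* H) :
    Lev (X.map e.toMonoidHom) (e z) := by
  obtain ⟨Y, k, hm, hi, hs⟩ := h
  have key : ∀ w, e z * e w * (e z)⁻¹ * (e w)⁻¹ = e (z * w * z⁻¹ * w⁻¹) := fun w => by
    rw [map_mul, map_mul, map_mul, map_inv, map_inv]
  refine ⟨Y.map e.toMonoidHom, e k, ?_, ?_, ?_⟩
  · rintro _ ⟨w, hw, rfl⟩
    show e z * e w * (e z)⁻¹ * (e w)⁻¹ ∈ cj (X.map e.toMonoidHom) (e k)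
    rw [key, ← map_cj]
    exact ⟨_, hm hw, rfl⟩
  · rintro _ ⟨w, hw, rfl⟩ _ ⟨w', hw', rfl⟩ he
    have he' : e z * e w * (e z)⁻¹ * (e w)⁻¹ = e z * e w' * (e z)⁻¹ * (e w')⁻¹ := he
    rw [key, key] at he'
    exact congrArg e (hi hw hw' (e.injective he'))
  · intro x hx
    rw [SetLike.mem_coe, ← map_cj] at hx
    obtain ⟨y, hy, rfl⟩ := hx
    obtain ⟨w, hw, he⟩ := hs hy
    refine ⟨e w, ⟨w, hw, rfl⟩, ?_⟩
    show e z * e w * (e z)⁻¹ * (e w)⁻¹ = e y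
    have he' : z * w * z⁻¹ * w⁻¹ = y := he
    rw [key, he']

/-- `LRG` is invariant under isomorphisms -/
theorem lrg_map {X : Subgroup G} {c : ℕ} (h : LRG X c) (e : G ≃* H) :
    LRG (X.map e.toMonoidHom) c := by
  refine ⟨?_, ?_, ?_⟩
  · intro g hg
    obtain ⟨k, rfl⟩ := e.surjective g
    rw [← map_cj] at hg ⊢
    rw [← Subgroup.map_inf _ _ _ e.injective, h.ti k (fun hk => hg (by rw [hk])), Subgroup.map_bot]
  · intro g
    obtain ⟨k, rfl⟩ := e.surjective g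
    obtain ⟨l, p, h1, h2, h3, h4⟩ := h.conn k
    refine ⟨l, fun i => (p i).map e.toMonoidHom, h1, ?_, ?_, fun i hi => adj_map (h4 i hi) e⟩
    · show (p 0).map e.toMonoidHom = _
      rw [h2]
    · show (p l).map e.toMonoidHom = _
      rw [h3, map_cj]
  · intro g hg a ha ha1 b hb hb1
    obtain ⟨k, rfl⟩ := e.surjective g
    rw [← map_cj] at hg hb
    obtain ⟨a, ha', rfl⟩ := ha
    obtain ⟨b, hb', rfl⟩ := hb
    have h1 := lev_map (h.lev k (fun hk => hg (by rw [hk])) a ha' (fun h => ha1 (by rw [h]; exact map_one e)) b hb'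
      (fun h => hb1 (by rw [h]; exact map_one e))) e
    rw [map_mul] at h1
    exact h1

end Cfsg.Agent.H753.Rg
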