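import Cfsg.Agent.H141.Rg.Defs

/-!
# S5714, task X7: the polynomial argument for `(g x(s)) ^ m = 1`
-/

set_option autoImplicit false

namespace Cfsg.Agent.H753.Rg

open Polynomial

universe u

section

variable {K ι : Type*} [Field K] [Fintype ι] [DecidableEq ι]

/-- the matrix of the coefficients of `X ^ n` -/
def topM (n : ℕ) (M : Matrix ι ι K[X]) : Matrix ι ι K := M.map fun p => p.coeff n

/-- all entries have degree at most `n` -/
def DegLe (n : ℕ) (M : Matrix ι ι K[X]) : Prop := ∀ i j, (M i j).natDegree ≤ n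

omit [DecidableEq ι] in
theorem DegLe.mul {m n : ℕ} {M N : Matrix ι ι K[X]} (hM : DegLe m M) (hN : DegLe n N) : DegLe (m + n) (M * N) := by
  intro i j
  rw [Matrix.mul_apply]
  refine natDegree_sum_le_of_forall_le _ _ fun k _ => ?_
  exact natDegree_mul_le.trans (add_le_add (hM i k) (hN k j))

omit [DecidableEq ι] in
theorem topM_mul {m n : ℕ} {M N : Matrix ι ι K[X]} (hM : DegLe m M) (hN : DegLe n N) :
    topM (m + n) (M * N) = topM m M * topM n N := by
  ext i j
  show (((M * N) i j).coeff (m + n)) = _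
  rw [Matrix.mul_apply, finsetSum_coeff, Matrix.mul_apply]
  exact Finset.sum_congr rfl fun k _ => coeff_mul_add_eq_of_natDegree_le (hM i k) (hN k j)

theorem degLe_pow {n : ℕ} {M : Matrix ι ι K[X]} (hM : DegLe n M) : ∀ m : ℕ, DegLe (n * m) (M ^ m) := by
  intro m
  induction m with
  | zero =>
    intro i j
    rw [pow_zero, Matrix.one_apply]
    split_ifs <;> simp
  | succ m ih =>
    rw [pow_succ, Nat.mul_succ]
    exact ih.mul hM

theorem topM_pow {n : ℕ} {M : Matrix ι ι K[X]} (hM : DegLe n M) : ∀ m : ℕ, 1 ≤ m →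
    topM (n * m) (M ^ m) = (topM n M) ^ m := by
  intro m hm
  induction m, hm using Nat.le_induction with
  | base => rw [mul_one, pow_one, pow_one]
  | succ m hm ih => rw [pow_succ, Nat.mul_succ, topM_mul (degLe_pow hM m) hM, ih, pow_succ]

theorem pow_col {E : Matrix ι ι K} {j : ι} (hE : ∀ k, k ≠ j → E j k = 0) : ∀ m : ℕ, (E ^ m) j j = (E j j) ^ m := by
  intro m
  induction m with
  | zero => rw [pow_zero, Matrix.one_apply_eq, pow_zero]
  | succ m ih =>
    rw [pow_succ', Matrix.mul_apply, Finset.sum_eq_single j, ih, pow_succ']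
    · intro k _ hk
      rw [hE k hk, zero_mul]
    · intro h
      exact absurd (Finset.mem_univ j) h

end

/-- **The polynomial argument.** -/
theorem card_pow_eq_one_le {T : Type u} [Group T] {K ι : Type*} [Field K] [Fintype ι] [DecidableEq ι]
    (R : T →* Matrix ι ι K) {F : Type*} [Finite F] (x : F → T) (t : F → K) (ht : Function.Injective t)
    (P : Matrix ι ι K[X]) {D : ℕ} (hD : 1 ≤ D)
    (hdeg : ∀ i j, (P i j).natDegree ≤ D) (hP : ∀ s, R (x s) = P.map (Polynomial.eval (t s)))
    {i0 j0 : ι} (h0 : ∀ i j, (i, j) ≠ (i0, j0) → (P i j).coeff D = 0) (h1 : (P i0 j0).coeff D ≠ 0)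
    (g : T) (hg : R g j0 i0 ≠ 0) (m : ℕ) (hm : 1 ≤ m) : Nat.card {s : F // (g * x s) ^ m = 1} ≤ D * m := by
  classical
  set Q : Matrix ι ι K[X] := (R g).map C * P with hQ
  have hQd : DegLe D Q := by
    have : DegLe 0 ((R g).map (C : K →+* K[X])) := fun i j => by
      rw [Matrix.map_apply, natDegree_C]
    have h2 := this.mul hdeg
    rwa [zero_add] at h2
  have hE : ∀ i j, topM D Q i j = if j = j0 then R g i i0 * (P i0 j0).coeff D else 0 := by
    intro i j
    show (Q i j).coeff D = _
    rw [hQ, Matrix.mul_apply, finsetSum_coeff]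
    by_cases hj : j = j0
    · rw [if_pos hj, Finset.sum_eq_single i0]
      · rw [Matrix.map_apply, coeff_C_mul, hj]
      · intro k _ hk
        rw [Matrix.map_apply, coeff_C_mul, h0 k j (fun h => hk (congrArg Prod.fst h)), mul_zero]
      · intro h
        exact absurd (Finset.mem_univ i0) h
    · rw [if_neg hj]
      refine Finset.sum_eq_zero fun k _ => ?_
      rw [Matrix.map_apply, coeff_C_mul, h0 k j (fun h => hj (congrArg Prod.snd h)), mul_zero]
  set p : K[X] := (Q ^ m) j0 j0 with hp
  have hpc : p.coeff (D * m) ≠ 0 := by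
    have h2 : p.coeff (D * m) = topM (D * m) (Q ^ m) j0 j0 := rfl
    rw [h2, topM_pow hQd m hm, pow_col (fun k hk => by rw [hE, if_neg hk]), hE, if_pos rfl]
    exact pow_ne_zero _ (mul_ne_zero hg h1)
  have hDm : D * m ≠ 0 := Nat.mul_ne_zero (by omega) (by omega)
  have hne : p - 1 ≠ 0 := by
    intro h
    apply hpc
    rw [sub_eq_zero.1 h, coeff_one, if_neg hDm]
  have hdeg1 : (p - 1).natDegree ≤ D * m := by
    refine (natDegree_sub_le _ _).trans (max_le (degLe_pow hQd m j0 j0) ?_)
    rw [natDegree_one]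
    exact Nat.zero_le _
  have hroot : ∀ s : F, (g * x s) ^ m = 1 → t s ∈ (p - 1).roots.toFinset := by
    intro s hs
    rw [Multiset.mem_toFinset, mem_roots hne, IsRoot.def, eval_sub, eval_one, sub_eq_zero]
    have h2 : R ((g * x s) ^ m) = 1 := by rw [hs, map_one]
    rw [map_pow, map_mul, hP] at h2
    have h3 : R g * P.map (Polynomial.eval (t s)) = Q.map (Polynomial.evalRingHom (t s)) := by
      rw [hQ, Matrix.map_mul]
      congr 1
      ext i j
      simp
    rw [h3, ← Matrix.map_pow] at h2
    have h4 := congrFun (congrFun h2 j0) j0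
    rw [Matrix.map_apply, Matrix.one_apply_eq] at h4
    exact h4
  have hcard : Nat.card {s : F // (g * x s) ^ m = 1} ≤ (p - 1).roots.toFinset.card := by
    have h2 := Nat.card_le_card_of_injective
      (fun s : {s : F // (g * x s) ^ m = 1} => (⟨t s.1, hroot s.1 s.2⟩ : {y // y ∈ (p - 1).roots.toFinset}))
      (fun a b h => Subtype.ext (ht (congrArg Subtype.val h)))
    generalize (p - 1).roots.toFinset = A at h2 ⊢
    have h3 : Nat.card A = A.card := by rw [Nat.card_eq_fintype_card, Fintype.card_coe]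
    rwa [h3] at h2
  refine hcard.trans ((Multiset.toFinset_card_le _).trans ((card_roots' _).trans hdeg1))

end Cfsg.Agent.H753.Rg
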