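import Cfsg.Agent.H753.Rg.TwF4B

/-!
# S5714, task X7: `ord_tf4`
-/

set_option autoImplicit false
set_option linter.unusedSectionVars false

namespace Cfsg.Agent.H753.Rg.TwF4

open Cfsg.Lie Cfsg.Agent.ChevalleyStructure.TwF4.Bits Cfsg.Agent.ChevalleyStructure.TwF4.Tables
open Cfsg.Agent.ChevalleyStructure.TwF4.Rel hiding X
open Cfsg.Agent.ChevalleyStructure.TwF4.Groups Cfsg.Agent.ChevalleyStructure.TwF4.RankOne
open Cfsg.Agent.ChevalleyStructure.TwF4.Twisted Cfsg.Agent.ChevalleyStructure.TwF4.TwistedFix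
open Cfsg.Agent.ChevalleyStructure.TwF4.BN
open Cfsg.Agent.KFacts.TwF4.Inst
open Cfsg Cfsg.Agent.OrdDiv Cfsg.Agent.H436 Cfsg.Agent.H141.Rg
open Polynomial

section

variable {K : Type*} [Field K] [CharP K 2]

theorem w0_mem {e : ℕ} (he : 0 < e) [Finite K] : w0 K ∈ twistedF4 K e := by
  have h1 : n1 K * n2 K ∈ twistedF4 K e := mul_mem n1_mem (n2_mem he)
  exact mul_mem h1 (mul_mem h1 (mul_mem h1 h1))

/-- many elements have a nonzero entry -/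
theorem card_S [Fintype K] {m : ℕ} (hK : Fintype.card K = 2 ^ (2 * m + 1)) :
    (2 ^ (2 * m + 1)) ^ 12 * ((2 ^ (2 * m + 1) - 1) ^ 2 * (2 ^ (2 * m + 1)) ^ 12) ≤
      Nat.card {g : ↥(twistedF4 K (2 ^ m)) // ((g : GL chevF4.Idx K) : Matrix chevF4.Idx chevF4.Idx K) lo hi ≠ 0} := by
  have h1 := Cfsg.Agent.S1090.result hK
  have h2 := Cfsg.Agent.S1110.result hK
  have hw : w0 K ∈ twistedF4 K (2 ^ m) := w0_mem (by positivity)
  have hp : ∀ g : ↥(chevF4.posUnipotent K ⊓ twistedF4 K (2 ^ m)), (g : GL chevF4.Idx K) ∈ GA K posB := by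
    intro g
    rw [← posUnipotent_eq]
    exact g.2.1
  rw [← h2]
  conv_lhs => rw [← h1]
  rw [← Nat.card_prod, ← Nat.card_prod]
  refine Nat.card_le_card_of_injective (fun p => ⟨⟨(p.1 : GL chevF4.Idx K) * (p.2.1 : GL chevF4.Idx K) * w0 K *
    (p.2.2 : GL chevF4.Idx K), mul_mem (mul_mem (mul_mem p.1.2.2 p.2.1.2.2) hw) p.2.2.2.2⟩,
    entry_ne (hp p.1) p.2.1.2.1 (hp p.2.2)⟩) ?_
  rintro ⟨u, h, v⟩ ⟨u', h', v'⟩ he
  have he' : (u : GL chevF4.Idx K) * (h : GL chevF4.Idx K) * w0 K * (v : GL chevF4.Idx K) =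
    (u' : GL chevF4.Idx K) * (h' : GL chevF4.Idx K) * w0 K * (v' : GL chevF4.Idx K) :=
    congrArg (fun x => ((x.1 : ↥(twistedF4 K (2 ^ m))) : GL chevF4.Idx K)) he
  obtain ⟨a, b, c⟩ := cell_inj (hp u) h.2.1 (hp v) (hp u') h'.2.1 (hp v') he'
  rw [Subtype.ext a, Subtype.ext b, Subtype.ext c]

theorem num_le {q : ℕ} (hq : 2 ≤ q) :
    q ^ 12 * (q - 1) * (q ^ 3 + 1) * (q ^ 4 - 1) * (q ^ 6 + 1) ≤ 16 * (q ^ 12 * ((q - 1) ^ 2 * q ^ 12)) := by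
  obtain ⟨r, hr⟩ : ∃ r, r = q - 1 := ⟨_, rfl⟩
  rw [← hr]
  have hq2 : q ≤ 2 * r := by omega
  have a1 : q ^ 3 + 1 ≤ 2 * q ^ 3 := by
    have := Nat.one_le_pow 3 q (by omega)
    omega
  have a2 : q ^ 6 + 1 ≤ 2 * q ^ 6 := by
    have := Nat.one_le_pow 6 q (by omega)
    omega
  have a3 : q ^ 4 - 1 ≤ q ^ 4 := Nat.sub_le _ _
  calc q ^ 12 * r * (q ^ 3 + 1) * (q ^ 4 - 1) * (q ^ 6 + 1) ≤ q ^ 12 * r * (2 * q ^ 3) * q ^ 4 * (2 * q ^ 6) :=
        Nat.mul_le_mul (Nat.mul_le_mul (Nat.mul_le_mul le_rfl a1) a3) a2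
    _ = 4 * (r * q ^ 24 * q) := by ring
    _ ≤ 4 * (r * q ^ 24 * (2 * r)) := Nat.mul_le_mul le_rfl (Nat.mul_le_mul le_rfl hq2)
    _ = 8 * (q ^ 12 * (r ^ 2 * q ^ 12)) := by ring
    _ ≤ 16 * (q ^ 12 * (r ^ 2 * q ^ 12)) := Nat.mul_le_mul (by norm_num) le_rfl

variable [Finite K] {φ : K →+* K} {e : ℕ}

theorem coe_re (hφ : Rln φ e) (s : K) : (((re hφ 2 0 s : ↥(twistedF4 K e)) : GL chevF4.Idx K) :
    Matrix chevF4.Idx chevF4.Idx K) = (PM K (2 * e)).map (Polynomial.eval s) := by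
  rw [PM_eval]
  show ((Cfsg.Agent.ChevalleyStructure.TwF4.Rel.X 29 0 * Cfsg.Agent.ChevalleyStructure.TwF4.Rel.X 41 (φ 0) *
    Cfsg.Agent.ChevalleyStructure.TwF4.Rel.X 44 (0 * φ 0 + s) *
    Cfsg.Agent.ChevalleyStructure.TwF4.Rel.X 47 (φ s) : GL chevF4.Idx K) : Matrix chevF4.Idx chevF4.Idx K) = _
  rw [map_zero, X_zero, X_zero, one_mul, one_mul, zero_mul, zero_add, Units.val_mul, Cfsg.Agent.ChevalleyStructure.TwF4.Rel.coe_X, Cfsg.Agent.ChevalleyStructure.TwF4.Rel.coe_X,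
    hφ.phi]
  congr 2
  rw [← pow_mul, mul_comm]

end

/-- **X7, second part.** -/
theorem ord_tf4 : ∃ c0 D0 : ℝ, 0 < c0 ∧ ∀ (q : ℕ) (T : Type) [Group T] [Finite T], IsNamed (.tf4 q) T →
    OrdData T q c0 D0 := by
  refine ⟨1 / 16, 4, by norm_num, fun q T _ _ h => ?_⟩
  obtain ⟨F, iF, iF2, m, hm, hF, hq, ⟨e⟩⟩ := h.real
  subst hq
  have hc : CharP F 2 := Cfsg.Agent.H203.LS.charP_of_card Nat.prime_two hF
  obtain ⟨φ, hφ⟩ := exists_rln hF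
  let R : T →* Matrix chevF4.Idx chevF4.Idx F :=
    (Units.coeHom (Matrix chevF4.Idx chevF4.Idx F)).comp ((twistedF4 F (2 ^ m)).subtype.comp e.toMonoidHom)
  have hR : ∀ g, R g = (((e g : ↥(twistedF4 F (2 ^ m))) : GL chevF4.Idx F) : Matrix chevF4.Idx chevF4.Idx F) :=
    fun _ => rfl
  have h2m : 2 ≤ 2 ^ m := by
    calc 2 = 2 ^ 1 := rfl
      _ ≤ 2 ^ m := Nat.pow_le_pow_right (by norm_num) hm
  refine ⟨F, inferInstance, fun s => e.symm (re hφ 2 0 s), {g | R g lo hi ≠ 0}, 2 * (2 * 2 ^ m), ?_, ?_, ?_, ?_, ?_⟩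
  · intro s t hst
    exact ((sys hφ).injE 2 0 s 0 t (e.symm.injective hst)).2
  · rw [Nat.card_eq_fintype_card, hF]
  · have h1 : Nat.card T = Nat.card ↥(twistedF4 F (2 ^ m)) := Nat.card_congr e.toEquiv
    have h2 : Nat.card ({g : T | R g lo hi ≠ 0} : Set T) = Nat.card {g : ↥(twistedF4 F (2 ^ m)) //
        ((g : GL chevF4.Idx F) : Matrix chevF4.Idx chevF4.Idx F) lo hi ≠ 0} :=
      Nat.card_congr (e.toEquiv.subtypeEquiv fun g => Iff.rfl)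
    have h3 := card_S hF
    have h4 := num_le (q := 2 ^ (2 * m + 1)) (by
      calc 2 = 2 ^ 1 := rfl
        _ ≤ 2 ^ (2 * m + 1) := Nat.pow_le_pow_right (by norm_num) (by omega))
    rw [← Cfsg.Agent.S1068.result hF, ← h1] at h4
    rw [← h2] at h3
    have h5 : Nat.card T ≤ 16 * Nat.card ({g : T | R g lo hi ≠ 0} : Set T) := h4.trans (Nat.mul_le_mul le_rfl h3)
    have h6 : (Nat.card T : ℝ) ≤ 16 * (Nat.card ({g : T | R g lo hi ≠ 0} : Set T) : ℝ) := by exact_mod_cast h5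
    linarith
  · have h1 : ((2 : ℝ) ^ m) ≤ Real.sqrt ((2 ^ (2 * m + 1) : ℕ) : ℝ) := by
      apply Real.le_sqrt_of_sq_le
      push_cast
      rw [← pow_mul, mul_comm m 2]
      exact pow_le_pow_right₀ (by norm_num) (by omega)
    push_cast
    push_cast at h1
    linarith
  · intro g hg k hk
    refine card_pow_eq_one_le R (fun s => e.symm (re hφ 2 0 s)) id Function.injective_id (PM F (2 * 2 ^ m))
      (by omega) (fun i j => PM_natDegree (by omega) i j) ?_ (i0 := hi) (j0 := lo) ?_ ?_ g hg k hk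
    · intro s
      rw [hR, e.apply_symm_apply]
      exact coe_re hφ s
    · intro i j hij
      rw [PM_coeff (by omega), Fls47, if_neg]
      rintro ⟨rfl, rfl⟩
      exact hij rfl
    · rw [PM_coeff (by omega), Fls47, if_pos ⟨rfl, rfl⟩]
      exact one_ne_zero

end Cfsg.Agent.H753.Rg.TwF4
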