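import Cfsg.Agent.H753.Rg.Conj
import Cfsg.Agent.KFacts.TwF4.Rot
import Cfsg.Agent.H203.LSTwF4

/-!
# S5714, task X7: the long root groups of `²F₄(q)` (`lrg_tf4`)
-/

set_option autoImplicit false
set_option linter.unusedSectionVars false

namespace Cfsg.Agent.H753.Rg.TwF4

open Cfsg.Agent.H141.Rg Cfsg.Agent.H753.Rg
open Cfsg.Agent.KFacts.TwF4 Cfsg.Agent.KFacts.TwF4.Full
open Cfsg.Agent.SplitTwo Cfsg.Agent.SplitTwo.ZS Cfsg.Agent.TitsThree.RankTwoZ Cfsg.Agent.TitsThree.RankTwoRGD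
open Cfsg.Agent.SplitTwo.RootSysZ

universe u

variable {F : Type*} [Field F] {σ : F →+* F} {G : Type u} [Group G] (S : Full σ G)

theorem z_add (a : ZMod 8) (u v : F) : S.e a 0 (u + v) = S.e a 0 u * S.e a 0 v := by
  rw [S.e_mul, add_zero, zero_mul, add_zero]

theorem zz_comm (u v : F) : S.e 2 0 u * S.e 3 0 v = S.e 3 0 v * S.e 2 0 u := by
  have h := S.e_e1 2 0 u 0 v
  rw [zero_mul, S.o_zero, mul_one] at h
  exact h

theorem z_inj {a : ZMod 8} {u v : F} (h : S.e a 0 u = S.e a 0 v) : u = v := (S.injE a 0 u 0 v h).2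

theorem z2_mem (u : F) : S.e 2 0 u ∈ S.XZ 4 := S.e_mem 2 0 u
theorem z3_mem (u : F) : S.e 3 0 u ∈ S.XZ 6 := S.e_mem 3 0 u

theorem eq_zero_of {u v : F} (h : S.e 2 0 u = S.e 3 0 v) : u = 0 ∧ v = 0 := by
  have h1 : S.e 2 0 u = 1 := S.X_inf_near (i := 4) (j := 6) (by norm_num) (by norm_num) (z2_mem S u)
    (by rw [h]; exact z3_mem S v)
  have h2 := (S.e_eq_one h1).2
  rw [h1] at h
  exact ⟨h2, (S.e_eq_one h.symm).2⟩

theorem zz_inj {u v u' v' : F} (h : S.e 2 0 u * S.e 3 0 v = S.e 2 0 u' * S.e 3 0 v') : u = u' ∧ v = v' := by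
  have h1 : S.e 2 0 (u - u') = S.e 3 0 (v' - v) := by
    have e1 : S.e 2 0 u' * S.e 2 0 (u - u') = S.e 2 0 u := by rw [← z_add, add_sub_cancel]
    have e2 : S.e 3 0 (v' - v) * S.e 3 0 v = S.e 3 0 v' := by rw [← z_add, sub_add_cancel]
    rw [← e1, ← e2, mul_assoc] at h
    exact mul_right_cancel (mul_left_cancel h)
  obtain ⟨h2, h3⟩ := eq_zero_of S h1
  exact ⟨sub_eq_zero.1 h2, (sub_eq_zero.1 h3).symm⟩

/-- the key relation `[Z_4, X_9] = Z_6` -/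
theorem rel5 (u s : F) : S.e 2 0 u * S.o 4 s = S.o 4 s * S.e 2 0 u * S.e 3 0 (u * s) := by
  have h : S.e 2 0 u * S.o 4 s = S.o 4 s * S.e 2 0 u * S.e 3 0 (0 * σ 0 * s + u * s) * S.o 3 (σ 0 * s) *
    S.e 4 0 (0 * σ s) := S.e_o2 2 0 u s
  rw [zero_mul, zero_mul, zero_add, map_zero, zero_mul, S.o_zero, mul_one, zero_mul, S.e_zero, mul_one] at h
  exact h

theorem z3_o4 (v s : F) : S.e 3 0 v * S.o 4 s = S.o 4 s * S.e 3 0 v := by
  have h : S.e 3 0 v * S.o 4 s = S.o 4 s * S.e 3 0 v * S.e 4 0 (0 * s) := S.e_o1 3 0 v s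
  rw [zero_mul, S.e_zero, mul_one] at h
  exact h

/-- the elements of the conjugate of `Z_4` by an element of `X_9` -/
theorem mem_B {v : F} {x : G} : x ∈ cj (S.Zc 2) (S.o 4 v)⁻¹ ↔ ∃ u, S.e 2 0 u * S.e 3 0 (u * v) = x := by
  rw [mem_cj, inv_inv, S.mem_Zc]
  constructor
  · rintro ⟨u, hu⟩
    refine ⟨u, ?_⟩
    have h := rel5 S u v
    rw [hu, mul_assoc (S.o 4 v) (S.o 4 v * x * (S.o 4 v)⁻¹)] at h
    have e1 : S.o 4 v * x * (S.o 4 v)⁻¹ * S.o 4 v = S.o 4 v * x := by group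
    rw [e1] at h
    rw [hu, ← mul_left_cancel h]
  · rintro ⟨u, rfl⟩
    refine ⟨u, ?_⟩
    rw [← mul_assoc, ← rel5]
    group

/-- the group of order `q²` -/
def Qh : Multiplicative (F × F) →* G where
  toFun p := S.e 2 0 p.toAdd.1 * S.e 3 0 p.toAdd.2
  map_one' := by
    show S.e 2 0 0 * S.e 3 0 0 = 1
    rw [S.e_zero, S.e_zero, one_mul]
  map_mul' p q := by
    show S.e 2 0 (p.toAdd.1 + q.toAdd.1) * S.e 3 0 (p.toAdd.2 + q.toAdd.2) =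
      S.e 2 0 p.toAdd.1 * S.e 3 0 p.toAdd.2 * (S.e 2 0 q.toAdd.1 * S.e 3 0 q.toAdd.2)
    rw [z_add, z_add]
    have h := zz_comm S q.toAdd.1 p.toAdd.2
    calc S.e 2 0 p.toAdd.1 * S.e 2 0 q.toAdd.1 * (S.e 3 0 p.toAdd.2 * S.e 3 0 q.toAdd.2)
        = S.e 2 0 p.toAdd.1 * (S.e 2 0 q.toAdd.1 * S.e 3 0 p.toAdd.2) * S.e 3 0 q.toAdd.2 := by group
      _ = _ := by rw [h]; group

theorem card_Z [Finite F] (a : ZMod 8) : Nat.card (S.Zc a) = Nat.card F := by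
  refine (Nat.card_congr (Equiv.ofBijective (fun u : F => (⟨S.e a 0 u, u, rfl⟩ : S.Zc a)) ⟨?_, ?_⟩)).symm
  · intro u v h
    exact z_inj S (congrArg Subtype.val h)
  · rintro ⟨_, u, rfl⟩
    exact ⟨u, rfl⟩

theorem cj_Zc_rot (a : ZMod 8) (k : ℤ) : cj (S.Zc a) (S.rot ^ k) = S.Zc (a + k) := by
  ext x
  constructor
  · rintro ⟨_, ⟨u, rfl⟩, rfl⟩
    exact ⟨u, (S.rotk_e k a 0 u).symm⟩
  · rintro ⟨u, rfl⟩
    exact ⟨S.e a 0 u, ⟨u, rfl⟩, S.rotk_e k a 0 u⟩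

theorem adj23 [Finite F] : Adj (S.Zc 2) (S.Zc 2) (S.Zc 3) := by
  classical
  have := Fintype.ofFinite F
  have hB0 : cj (S.Zc 2) (S.o 4 0)⁻¹ = S.Zc 2 := by rw [S.o_zero, inv_one, cj_one]
  have hne : ∀ v : F, cj (S.Zc 2) (S.o 4 v)⁻¹ ≠ S.Zc 3 := by
    intro v h
    have h1 : S.e 3 0 1 ∈ cj (S.Zc 2) (S.o 4 v)⁻¹ := by rw [h]; exact ⟨1, rfl⟩
    obtain ⟨u, hu⟩ := (mem_B S).1 h1
    have h2 : S.e 2 0 u * S.e 3 0 (u * v) = S.e 2 0 0 * S.e 3 0 1 := by rw [hu, S.e_zero, one_mul]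
    obtain ⟨h3, h4⟩ := zz_inj S h2
    rw [h3, zero_mul] at h4
    exact zero_ne_one h4
  have hinj : Function.Injective fun v : F => cj (S.Zc 2) (S.o 4 v)⁻¹ := by
    intro v v' h
    have h1 : S.e 2 0 1 * S.e 3 0 (1 * v) ∈ cj (S.Zc 2) (S.o 4 v')⁻¹ := by
      rw [← show cj (S.Zc 2) (S.o 4 v)⁻¹ = cj (S.Zc 2) (S.o 4 v')⁻¹ from h]
      exact (mem_B S).2 ⟨1, rfl⟩
    obtain ⟨u, hu⟩ := (mem_B S).1 h1
    obtain ⟨h3, h4⟩ := zz_inj S hu
    rw [h3, one_mul, one_mul] at h4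
    exact h4.symm
  refine ⟨insert (S.Zc 3) (Finset.univ.image fun v : F => cj (S.Zc 2) (S.o 4 v)⁻¹), (Qh S).range, ?_, ?_, ?_, ?_, ?_,
    ?_, ?_⟩
  · refine Finset.mem_insert_of_mem (Finset.mem_image.2 ⟨0, Finset.mem_univ _, hB0⟩)
  · exact Finset.mem_insert_self _ _
  · intro C hC
    rcases Finset.mem_insert.1 hC with rfl | hC
    · refine ⟨S.rot ^ (1 : ℤ), ?_⟩
      rw [cj_Zc_rot]
      rfl
    · obtain ⟨v, -, rfl⟩ := Finset.mem_image.1 hC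
      exact ⟨_, rfl⟩
  · rw [Finset.card_insert_of_notMem, Finset.card_image_of_injective _ hinj, Finset.card_univ, card_Z,
      Nat.card_eq_fintype_card]
    intro h
    obtain ⟨v, -, hv⟩ := Finset.mem_image.1 h
    exact hne v hv
  · have k1 : ∀ v : F, cj (S.Zc 2) (S.o 4 v)⁻¹ ⊓ S.Zc 3 = ⊥ := by
      intro v
      rw [eq_bot_iff]
      rintro x ⟨hx, hx'⟩
      obtain ⟨u, rfl⟩ := (mem_B S).1 hx
      obtain ⟨w, hw⟩ := hx'
      have h2 : S.e 2 0 u * S.e 3 0 (u * v) = S.e 2 0 0 * S.e 3 0 w := by rw [← hw, S.e_zero, one_mul]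
      obtain ⟨h3, h4⟩ := zz_inj S h2
      rw [Subgroup.mem_bot, h3, zero_mul, S.e_zero, S.e_zero, one_mul]
    have k2 : ∀ v v' : F, v ≠ v' → cj (S.Zc 2) (S.o 4 v)⁻¹ ⊓ cj (S.Zc 2) (S.o 4 v')⁻¹ = ⊥ := by
      intro v v' hvv
      rw [eq_bot_iff]
      rintro x ⟨hx, hx'⟩
      obtain ⟨u, rfl⟩ := (mem_B S).1 hx
      obtain ⟨w, hw⟩ := (mem_B S).1 hx'
      obtain ⟨h3, h4⟩ := zz_inj S hw
      rw [h3] at h4
      have h5 : u * (v' - v) = 0 := by rw [mul_sub, h4, sub_self]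
      have h6 : u = 0 := (mul_eq_zero.1 h5).resolve_right (sub_ne_zero.2 hvv.symm)
      rw [Subgroup.mem_bot, h6, zero_mul, S.e_zero, S.e_zero, one_mul]
    intro C hC D hD hCD
    rcases Finset.mem_insert.1 hC with rfl | hC
    · rcases Finset.mem_insert.1 hD with rfl | hD
      · exact absurd rfl hCD
      · obtain ⟨v, -, rfl⟩ := Finset.mem_image.1 hD
        rw [inf_comm]
        exact k1 v
    · obtain ⟨v, -, rfl⟩ := Finset.mem_image.1 hC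
      rcases Finset.mem_insert.1 hD with rfl | hD
      · exact k1 v
      · obtain ⟨v', -, rfl⟩ := Finset.mem_image.1 hD
        exact k2 v v' (fun h => hCD (by rw [h]))
  · intro C hC
    rcases Finset.mem_insert.1 hC with rfl | hC
    · rintro _ ⟨u, rfl⟩
      refine ⟨Multiplicative.ofAdd (0, u), ?_⟩
      show S.e 2 0 0 * S.e 3 0 u = _
      rw [S.e_zero, one_mul]
    · obtain ⟨v, -, rfl⟩ := Finset.mem_image.1 hC
      intro x hx
      obtain ⟨u, rfl⟩ := (mem_B S).1 hx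
      exact ⟨Multiplicative.ofAdd (u, u * v), rfl⟩
  · have h1 : Function.Injective (Qh S) := by
      intro p q h
      obtain ⟨h2, h3⟩ := zz_inj S (show S.e 2 0 p.toAdd.1 * S.e 3 0 p.toAdd.2 =
        S.e 2 0 q.toAdd.1 * S.e 3 0 q.toAdd.2 from h)
      exact Multiplicative.toAdd.injective (Prod.ext h2 h3)
    rw [card_Z]
    have h2 : Nat.card (Qh S).range = Nat.card (Multiplicative (F × F)) :=
      (Nat.card_congr (MonoidHom.ofInjective h1).toEquiv).symm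
    rw [h2]
    show Nat.card (F × F) = _
    rw [Nat.card_prod, pow_two]

/-- consecutive centres are adjacent -/
theorem adj_succ [Finite F] (k : ℤ) : Adj (S.Zc 2) (S.Zc (2 + (k : ZMod 8))) (S.Zc (2 + ((k + 1 : ℤ) : ZMod 8))) := by
  have h := adj_conj (adj23 S) (S.rot ^ k)
  rw [cj_Zc_rot, cj_Zc_rot] at h
  have e1 : (3 : ZMod 8) + (k : ZMod 8) = 2 + ((k + 1 : ℤ) : ZMod 8) := by
    push_cast
    have : (3 : ZMod 8) = 2 + 1 := rfl
    rw [this]; ring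
  rw [e1] at h
  exact h

/-- an element of the dihedral group maps `Z_4` to some `Z_{2a}` -/
theorem cj_of_dih {w : G} (hw : S.IsDihE w) : ∃ a : ZMod 8, cj (S.Zc 2) w = S.Zc a := by
  have hT : ∀ t ∈ S.T, ∀ a, cj (S.Zc a) t = S.Zc a := by
    intro t ht a
    ext x
    rw [mem_cj]
    constructor
    · intro h
      have := S.T_conj_Zc ht h
      have e1 : t * (t⁻¹ * x * t) * t⁻¹ = x := by group
      rwa [e1] at this
    · intro h
      have := S.T_conj_Zc (inv_mem ht) h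
      rwa [inv_inv] at this
  obtain ⟨c, hc | hc⟩ := hw
  · have h1 : w * S.rot ^ (-c) ∈ S.T := by
      rw [S.T_iff]
      refine (hc.mul (S.rot_maps (-c))).congr fun k => ?_
      show ((2 * c : ℤ) : ZMod (2 * 8)) + (((2 * -c : ℤ) : ZMod (2 * 8)) + k) = k
      push_cast
      ring
    refine ⟨2 + (c : ZMod 8), ?_⟩
    have e1 : w = (w * S.rot ^ (-c)) * S.rot ^ c := by rw [zpow_neg]; group
    rw [e1, ← cj_cj, cj_Zc_rot, hT _ h1]
  · have h1 : w * S.n2 * S.rot ^ (4 - c) ∈ S.T := by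
      rw [S.T_iff]
      refine ((hc.mul S.n2_maps).mul (S.rot_maps (4 - c))).congr fun k => ?_
      show ((2 * c : ℤ) : ZMod (2 * 8)) - (8 - (((2 * (4 - c) : ℤ) : ZMod (2 * 8)) + k)) = k
      push_cast
      ring
    have h2 : cj (S.Zc 2) S.n2 = S.Zc 2 := by
      ext x
      rw [mem_cj]
      constructor
      · rintro ⟨u, hu⟩
        refine ⟨u, ?_⟩
        have h3 := S.n2_e 2 0 u
        rw [hu] at h3
        have e1 : S.n2 * (S.n2⁻¹ * x * S.n2) * S.n2⁻¹ = x := by group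
        rw [e1] at h3
        exact h3.symm
      · rintro ⟨u, rfl⟩
        refine ⟨u, ?_⟩
        have h3 : S.n2 * S.e 2 0 u * S.n2⁻¹ = S.e 2 0 u := S.n2_e 2 0 u
        calc S.e 2 0 u = S.n2⁻¹ * (S.n2 * S.e 2 0 u * S.n2⁻¹) * S.n2 := by group
          _ = _ := by rw [h3]
    refine ⟨2 + ((c - 4 : ℤ) : ZMod 8), ?_⟩
    have e1 : w = (w * S.n2 * S.rot ^ (4 - c)) * (S.rot ^ (c - 4) * S.n2) := by
      have e2 : S.rot ^ (4 - c) * S.rot ^ (c - 4) = 1 := by rw [← zpow_add]; simp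
      calc w = w * (S.n2 * S.n2) := by rw [S.n2_sq, mul_one]
        _ = w * S.n2 * 1 * S.n2 := by group
        _ = w * S.n2 * (S.rot ^ (4 - c) * S.rot ^ (c - 4)) * S.n2 := by rw [e2]
        _ = _ := by group
    rw [e1, ← cj_cj, ← cj_cj (S.Zc 2) (S.rot ^ (c - 4)) S.n2, h2, cj_Zc_rot, hT _ h1]

/-- pairs of conjugates of `Z_4` -/
theorem exists_pair (g : G) : ∃ k : G, cj (S.Zc 2) k = S.Zc 2 ∧ ∃ a : ZMod 8, cj (S.Zc 2) g = cj (S.Zc a) k := by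
  obtain ⟨b, hb, t, ht, w, hw, b', hb', rfl⟩ := S.bruhatE g
  have hP : ∀ y ∈ S.PL, cj (S.Zc 2) y = S.Zc 2 := by
    intro y hy
    ext x
    rw [mem_cj]
    constructor
    · intro h
      have := S.comm_PL hy h
      have e1 : y * (y⁻¹ * x * y) = x * y := by group
      rw [e1] at this
      have : x = y⁻¹ * x * y := mul_right_cancel this
      rw [this]; exact h
    · intro h
      rw [mul_assoc, ← S.comm_PL hy h, inv_mul_cancel_left]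
      exact h
  obtain ⟨a, ha⟩ := cj_of_dih S hw
  refine ⟨b * t, ?_, a, ?_⟩
  · rw [← cj_cj]
    have h1 : cj (S.Zc 2) t = S.Zc 2 := by
      ext x
      rw [mem_cj]
      constructor
      · intro h
        have := S.T_conj_Zc ht h
        have e1 : t * (t⁻¹ * x * t) * t⁻¹ = x := by group
        rwa [e1] at this
      · intro h
        have := S.T_conj_Zc (inv_mem ht) h
        rwa [inv_inv] at this
    rw [h1, hP b (J_mono (by norm_num) le_rfl hb)]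
  · rw [← cj_cj (S.Zc 2) (b * t * w) b', hP b' (J_mono (by norm_num) le_rfl hb'), ← cj_cj (S.Zc 2) (b * t) w, ha]

/-! ### level one -/

theorem o4_add (s t : F) : S.o 4 (s + t) = S.o 4 s * S.o 4 t := (S.o_add 4 s t).symm

/-- `X_9` -/
def X9 : Subgroup G where
  carrier := {g | ∃ t, S.o 4 t = g}
  one_mem' := ⟨0, S.o_zero 4⟩
  mul_mem' := by
    rintro _ _ ⟨u, rfl⟩ ⟨v, rfl⟩
    exact ⟨u + v, o4_add S u v⟩
  inv_mem' := by
    rintro _ ⟨u, rfl⟩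
    refine ⟨-u, ?_⟩
    refine eq_inv_of_mul_eq_one_left ?_
    rw [← o4_add, neg_add_cancel, S.o_zero]

theorem lev_of_comm {u : F} (hu : u ≠ 0) {y : G} (hy : ∀ s, y * S.o 4 s = S.o 4 s * y) :
    Lev (S.Zc 2) (S.e 2 0 u * y) := by
  have key : ∀ s, S.e 2 0 u * y * S.o 4 s * (S.e 2 0 u * y)⁻¹ * (S.o 4 s)⁻¹ = S.e 3 0 (u * s) := by
    intro s
    calc S.e 2 0 u * y * S.o 4 s * (S.e 2 0 u * y)⁻¹ * (S.o 4 s)⁻¹
        = S.e 2 0 u * (y * S.o 4 s) * y⁻¹ * (S.e 2 0 u)⁻¹ * (S.o 4 s)⁻¹ := by group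
      _ = (S.e 2 0 u * S.o 4 s) * (S.e 2 0 u)⁻¹ * (S.o 4 s)⁻¹ := by rw [hy]; group
      _ = S.o 4 s * (S.e 2 0 u * S.e 3 0 (u * s)) * (S.e 2 0 u)⁻¹ * (S.o 4 s)⁻¹ := by rw [rel5]; group
      _ = (S.o 4 s * S.e 3 0 (u * s)) * (S.o 4 s)⁻¹ := by rw [zz_comm]; group
      _ = _ := by rw [← z3_o4]; group
  have h3 : cj (S.Zc 2) (S.rot ^ (1 : ℤ)) = S.Zc 3 := by
    rw [cj_Zc_rot]
    rfl
  refine ⟨X9 S, S.rot ^ (1 : ℤ), ?_, ?_, ?_⟩
  · rintro _ ⟨s, rfl⟩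
    show S.e 2 0 u * y * S.o 4 s * (S.e 2 0 u * y)⁻¹ * (S.o 4 s)⁻¹ ∈ cj (S.Zc 2) (S.rot ^ (1 : ℤ))
    rw [key, h3]
    exact ⟨_, rfl⟩
  · rintro _ ⟨s, rfl⟩ _ ⟨s', rfl⟩ h
    have h' : S.e 2 0 u * y * S.o 4 s * (S.e 2 0 u * y)⁻¹ * (S.o 4 s)⁻¹ =
      S.e 2 0 u * y * S.o 4 s' * (S.e 2 0 u * y)⁻¹ * (S.o 4 s')⁻¹ := h
    rw [key, key] at h'
    rw [mul_left_cancel₀ hu (z_inj S h')]
  · rw [h3]
    rintro _ ⟨v, rfl⟩
    refine ⟨S.o 4 (u⁻¹ * v), ⟨_, rfl⟩, ?_⟩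
    show S.e 2 0 u * y * S.o 4 (u⁻¹ * v) * (S.e 2 0 u * y)⁻¹ * (S.o 4 (u⁻¹ * v))⁻¹ = _
    rw [key, mul_inv_cancel_left₀ hu]

/-- the centres which commute with `X_9` -/
theorem comm9 (v s : F) : (S.e 3 0 v * S.o 4 s = S.o 4 s * S.e 3 0 v) ∧ (S.e 4 0 v * S.o 4 s = S.o 4 s * S.e 4 0 v) ∧
    (S.e 5 0 v * S.o 4 s = S.o 4 s * S.e 5 0 v) ∧ (S.e 6 0 v * S.o 4 s = S.o 4 s * S.e 6 0 v) := by
  refine ⟨z3_o4 S v s, S.e_o0 4 0 v s, (S.o_e1 4 s 0 v).symm, ?_⟩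
  have h : S.o 4 s * S.e 6 0 v = S.e 6 0 v * S.o 4 s * S.e 5 0 (s * 0) := S.o_e2 4 s 0 v
  rw [mul_zero, S.e_zero, mul_one] at h
  exact h.symm

theorem lev_pair {u v : F} (hu : u ≠ 0) {a : ZMod 8} (ha : a ≠ 2) : Lev (S.Zc 2) (S.e 2 0 u * S.e a 0 v) := by
  have key : ∀ a : ZMod 8, (a = 3 ∨ a = 4 ∨ a = 5 ∨ a = 6) → Lev (S.Zc 2) (S.e 2 0 u * S.e a 0 v) := by
    intro a ha
    refine lev_of_comm S hu fun s => ?_
    obtain ⟨h1, h2, h3, h4⟩ := comm9 S v s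
    rcases ha with rfl | rfl | rfl | rfl
    · exact h1
    · exact h2
    · exact h3
    · exact h4
  have hcase : (a = 3 ∨ a = 4 ∨ a = 5 ∨ a = 6) ∨ (4 - a = 3 ∨ 4 - a = 4 ∨ 4 - a = 5 ∨ 4 - a = 6) := by
    revert a
    decide
  rcases hcase with h | h
  · exact key a h
  · have h1 := lev_conj (key _ h) S.n2
    have e1 : S.n2 * (S.e 2 0 u * S.e (4 - a) 0 v) * S.n2⁻¹ =
        (S.n2 * S.e 2 0 u * S.n2⁻¹) * (S.n2 * S.e (4 - a) 0 v * S.n2⁻¹) := by group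
    rw [e1, S.n2_e, S.n2_e, sub_sub_cancel] at h1
    exact h1

/-- **The long root groups of a group of type `²F₄`.** -/
theorem lrg [Finite F] : LRG (S.Zc 2) 7 := by
  refine ⟨?_, ?_, ?_⟩
  · intro g hg
    by_contra hne
    obtain ⟨x, hx1⟩ := Subgroup.ne_bot_iff_exists_ne_one.1 hne
    have hx := x.2
    have hx1' : (x : G) ≠ 1 := fun h => hx1 (Subtype.ext h)
    have h1 := mem_cj.1 hx.1
    have h2 : g⁻¹ * (x : G) * g ≠ 1 := by
      intro h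
      apply hx1'
      have e1 : (x : G) = g * (g⁻¹ * (x : G) * g) * g⁻¹ := by group
      rw [e1, h]; group
    refine hg (le_antisymm ?_ ?_)
    · rintro _ ⟨y, hy, rfl⟩
      refine S.conj_Zc_of_inter h1 h2 ?_ hy
      have e1 : g * (g⁻¹ * (x : G) * g) * g⁻¹ = x := by group
      rw [e1]; exact hx.2
    · intro y hy
      rw [mem_cj]
      have := S.conj_Zc_of_inter (z := (x : G)) (g := g⁻¹) hx.2 hx1' (by rw [inv_inv]; exact h1) hy
      rwa [inv_inv] at this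
  · intro g
    obtain ⟨k, hk, a, ha⟩ := exists_pair S g
    refine ⟨(a - 2).val, fun i => cj (S.Zc (2 + ((i : ℤ) : ZMod 8))) k, ?_, ?_, ?_, ?_⟩
    · have := ZMod.val_lt (a - 2)
      omega
    · show cj (S.Zc (2 + (((0 : ℕ) : ℤ) : ZMod 8))) k = _
      rw [Nat.cast_zero, Int.cast_zero, add_zero, hk]
    · show cj (S.Zc (2 + ((((a - 2).val : ℕ) : ℤ) : ZMod 8))) k = _
      rw [Int.cast_natCast, ZMod.natCast_zmod_val, add_sub_cancel, ha]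
    · intro i _
      have := adj_conj (adj_succ S (i : ℤ)) k
      have e1 : (((i + 1 : ℕ) : ℤ) : ZMod 8) = (((i : ℤ) + 1 : ℤ) : ZMod 8) := by push_cast; rfl
      show Adj (S.Zc 2) (cj (S.Zc (2 + ((i : ℤ) : ZMod 8))) k) (cj (S.Zc (2 + (((i + 1 : ℕ) : ℤ) : ZMod 8))) k)
      rw [e1]
      exact this
  · intro g hg x hx hx1 y hy hy1
    obtain ⟨k, hk, a, ha⟩ := exists_pair S g
    rw [ha] at hy hg
    have ha2 : a ≠ 2 := by
      rintro rfl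
      exact hg hk
    have h1 : k⁻¹ * x * k ∈ S.Zc 2 := by
      rw [← hk] at hx
      exact mem_cj.1 hx
    have h2 := mem_cj.1 hy
    obtain ⟨u, hu⟩ := h1
    obtain ⟨v, hv⟩ := h2
    have hu0 : u ≠ 0 := by
      rintro rfl
      rw [S.e_zero] at hu
      apply hx1
      have e1 : x = k * (k⁻¹ * x * k) * k⁻¹ := by group
      rw [e1, ← hu]; group
    have h3 := lev_conj (lev_pair S (v := v) hu0 ha2) k
    rw [hu, hv] at h3
    have e1 : k * (k⁻¹ * x * k * (k⁻¹ * y * k)) * k⁻¹ = x * y := by group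
    rw [e1] at h3
    exact h3

theorem Zc_ne_top : S.Zc 2 ≠ ⊤ := by
  intro h
  have h1 : S.o 0 1 ∈ S.Zc 2 := by rw [h]; exact Subgroup.mem_top _
  have h2 : S.o 0 1 ∈ S.XZ 4 := S.Zc_le 2 h1
  have h3 : S.o 0 1 ∈ S.XZ 1 := by
    have := S.o_mem 0 1
    push_cast at this
    exact this
  have h4 := S.X_inf_near (i := 1) (j := 4) (by norm_num) (by norm_num) h3 h2
  exact one_ne_zero (S.o_eq_one h4)

open Cfsg Cfsg.Agent.OrdDiv Cfsg.Agent.H436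

/-- **X7, first part.** -/
theorem lrg_tf4 : ∃ c : ℕ, ∀ (q : ℕ) (T : Type) [Group T] [Finite T], IsNamed (.tf4 q) T → ∃ X : Subgroup T,
    Nat.card X = q ∧ X ≠ ⊤ ∧ LRG X c := by
  refine ⟨7, fun q T _ _ h => ?_⟩
  obtain ⟨F, iF, iF2, m, hm, hF, hq, ⟨e⟩⟩ := h.real
  subst hq
  have : CharP F 2 := Cfsg.Agent.H203.LS.charP_of_card Nat.prime_two hF
  obtain ⟨φ, hφ⟩ := Cfsg.Agent.ChevalleyStructure.TwF4.TwistedFix.exists_rln hF
  let S := Cfsg.Agent.KFacts.TwF4.Inst.full hF hφ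
  refine ⟨(S.Zc 2).map e.symm.toMonoidHom, ?_, ?_, lrg_map (lrg S) e.symm⟩
  · rw [card_map, card_Z, Nat.card_eq_fintype_card, hF]
  · intro h
    apply Zc_ne_top S
    apply map_inj e.symm
    rw [h, Subgroup.map_top_of_surjective _ e.symm.surjective]

end Cfsg.Agent.H753.Rg.TwF4
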