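import Cfsg.Agent.H753.Rg.TwF4A
import Cfsg.Agent.H753.Rg.PolyPow
import Cfsg.Agent.ChevalleyStructure.TwF4.NRoot
import Cfsg.Agent.S1068
import Cfsg.Agent.S1090
import Cfsg.Agent.S1110

/-!
# S5714, task X7: elements of small order in `²F₄(q)` (`ord_tf4`)
-/

set_option autoImplicit false
set_option linter.unusedSectionVars false

namespace Cfsg.Agent.H753.Rg.TwF4

open Cfsg.Lie Cfsg.Agent.ChevalleyStructure.TwF4.Bits Cfsg.Agent.ChevalleyStructure.TwF4.Tables
open Cfsg.Agent.ChevalleyStructure.TwF4.Rel hiding X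
open Cfsg.Agent.ChevalleyStructure.TwF4.Groups Cfsg.Agent.ChevalleyStructure.TwF4.RankOne
open Cfsg.Agent.ChevalleyStructure.TwF4.Twisted Cfsg.Agent.ChevalleyStructure.TwF4.TwistedFix
open Cfsg.Agent.ChevalleyStructure.TwF4.BN Cfsg.Agent.ChevalleyStructure.TwF4.NStruct
open Cfsg.Agent.ChevalleyStructure.TwF4.NRoot
open Polynomial

variable {K : Type*} [Field K]

/-- the highest root -/
def hi : chevF4.Idx := Sum.inr (⟨47, by decide⟩ : Fin 48)
/-- the lowest root -/
def lo : chevF4.Idx := Sum.inr (⟨0, by decide⟩ : Fin 48)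

theorem pos_hi : pos hi = 51 := rfl
theorem pos_lo : pos lo = 4 := rfl

/-! ### the two stabilisers -/

/-- the stabiliser of a vector -/
def fixSub (v : chevF4.Idx → K) : Subgroup (GL chevF4.Idx K) where
  carrier := {g | (g : Matrix chevF4.Idx chevF4.Idx K).mulVec v = v}
  mul_mem' := by
    intro a b ha hb
    show ((a * b : GL chevF4.Idx K) : Matrix chevF4.Idx chevF4.Idx K).mulVec v = v
    have ha' : (a : Matrix chevF4.Idx chevF4.Idx K).mulVec v = v := ha
    have hb' : (b : Matrix chevF4.Idx chevF4.Idx K).mulVec v = v := hb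
    rw [Units.val_mul, ← Matrix.mulVec_mulVec, hb', ha']
  one_mem' := Matrix.one_mulVec v
  inv_mem' := by
    intro a ha
    have ha' : (a : Matrix chevF4.Idx chevF4.Idx K).mulVec v = v := ha
    show ((a⁻¹ : GL chevF4.Idx K) : Matrix chevF4.Idx chevF4.Idx K).mulVec v = v
    conv_lhs => rw [← ha']
    rw [Matrix.mulVec_mulVec, ← Units.val_mul, inv_mul_cancel, Units.val_one, Matrix.one_mulVec]

/-- the stabiliser of a covector -/
def cofixSub (v : chevF4.Idx → K) : Subgroup (GL chevF4.Idx K) where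
  carrier := {g | Matrix.vecMul v (g : Matrix chevF4.Idx chevF4.Idx K) = v}
  mul_mem' := by
    intro a b ha hb
    show Matrix.vecMul v ((a * b : GL chevF4.Idx K) : Matrix chevF4.Idx chevF4.Idx K) = v
    have ha' : Matrix.vecMul v (a : Matrix chevF4.Idx chevF4.Idx K) = v := ha
    have hb' : Matrix.vecMul v (b : Matrix chevF4.Idx chevF4.Idx K) = v := hb
    rw [Units.val_mul, ← Matrix.vecMul_vecMul, ha', hb']
  one_mem' := Matrix.vecMul_one v
  inv_mem' := by
    intro a ha
    have ha' : Matrix.vecMul v (a : Matrix chevF4.Idx chevF4.Idx K) = v := ha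
    show Matrix.vecMul v ((a⁻¹ : GL chevF4.Idx K) : Matrix chevF4.Idx chevF4.Idx K) = v
    conv_lhs => rw [← ha']
    rw [Matrix.vecMul_vecMul, ← Units.val_mul, mul_inv_cancel, Units.val_one, Matrix.vecMul_one]

theorem semS_col {l : Sparse} {j : chevF4.Idx} (h : (l.all fun e => e.2 != pos j) = true) (i : chevF4.Idx) :
    semS pos K l i j = 0 := by
  rw [semS_apply]
  refine List.sum_eq_zero fun y hy => ?_
  obtain ⟨e, he, rfl⟩ := List.mem_map.1 hy
  rw [if_neg]
  rintro ⟨-, h2⟩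
  have := List.all_eq_true.1 h e he
  simp [h2] at this

theorem semS_row {l : Sparse} {i : chevF4.Idx} (h : (l.all fun e => e.1 != pos i) = true) (j : chevF4.Idx) :
    semS pos K l i j = 0 := by
  rw [semS_apply]
  refine List.sum_eq_zero fun y hy => ?_
  obtain ⟨e, he, rfl⟩ := List.mem_map.1 hy
  rw [if_neg]
  rintro ⟨h2, -⟩
  have := List.all_eq_true.1 h e he
  simp [h2] at this

theorem tab_col : ((List.range 48).all fun r => decide (r < 24) ||
    (((Els r).all fun e => e.2 != 51) && ((Fls r).all fun e => e.2 != 51) &&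
      ((Els r).all fun e => e.1 != 4) && ((Fls r).all fun e => e.1 != 4))) = true := by decide +kernel

variable [CharP K 2]

theorem pos_fix {g : GL chevF4.Idx K} (hg : g ∈ GA K posB) :
    g ∈ fixSub (Pi.single hi (1 : K)) ∧ g ∈ cofixSub (Pi.single lo (1 : K)) := by
  have key : GA K posB ≤ fixSub (Pi.single hi (1 : K)) ⊓ cofixSub (Pi.single lo (1 : K)) := by
    rw [GA_le_iff]
    intro r hr hA t
    have h := List.all_eq_true.1 tab_col r (List.mem_range.2 hr)
    have h24 : 24 ≤ r := of_decide_eq_true hA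
    rw [Bool.or_eq_true] at h
    have h := h.resolve_left (by rw [decide_eq_true_iff]; omega)
    simp only [Bool.and_eq_true] at h
    obtain ⟨⟨⟨h1, h2⟩, h3⟩, h4⟩ := h
    refine ⟨?_, ?_⟩
    · show (chevF4.x K r t).mulVec (Pi.single hi 1) = Pi.single hi 1
      rw [x_eq r hr, Matrix.add_mulVec, Matrix.add_mulVec, Matrix.one_mulVec]
      have e1 : (t • semS pos K (Els r)).mulVec (Pi.single hi 1) = 0 := by
        funext i
        rw [Matrix.mulVec_single_one]
        show t * semS pos K (Els r) i hi = 0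
        rw [semS_col h1, mul_zero]
      have e2 : (t ^ 2 • semS pos K (Fls r)).mulVec (Pi.single hi 1) = 0 := by
        funext i
        rw [Matrix.mulVec_single_one]
        show t ^ 2 * semS pos K (Fls r) i hi = 0
        rw [semS_col h2, mul_zero]
      rw [e1, e2, add_zero, add_zero]
    · show Matrix.vecMul (Pi.single lo 1) (chevF4.x K r t) = Pi.single lo 1
      rw [x_eq r hr, Matrix.vecMul_add, Matrix.vecMul_add, Matrix.vecMul_one]
      have e1 : Matrix.vecMul (Pi.single lo 1) (t • semS pos K (Els r)) = 0 := by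
        funext i
        rw [Matrix.single_one_vecMul]
        show t * semS pos K (Els r) lo i = 0
        rw [semS_row h3, mul_zero]
      have e2 : Matrix.vecMul (Pi.single lo 1) (t ^ 2 • semS pos K (Fls r)) = 0 := by
        funext i
        rw [Matrix.single_one_vecMul]
        show t ^ 2 * semS pos K (Fls r) lo i = 0
        rw [semS_row h4, mul_zero]
      rw [e1, e2, add_zero, add_zero]
  exact key hg

/-- the entry -/
theorem entry_eq (M : Matrix chevF4.Idx chevF4.Idx K) : Pi.single lo (1 : K) ⬝ᵥ M.mulVec (Pi.single hi 1) = M lo hi := by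
  rw [Matrix.mulVec_single_one, single_dotProduct, one_mul]
  rfl

/-- the longest element -/
def w0 (K : Type*) [Field K] [CharP K 2] : GL chevF4.Idx K :=
  (n1 K * n2 K) * ((n1 K * n2 K) * ((n1 K * n2 K) * (n1 K * n2 K)))

theorem w0_entry : (w0 K : Matrix chevF4.Idx chevF4.Idx K) lo hi = 1 := by
  have h1 := (mono_n1 (K := K)).mul mono_n2
  have h : Mono (w0 K) _ := h1.mul (h1.mul (h1.mul h1))
  have h2 := h.root lo (⟨47, by decide⟩ : Fin 48)
  have h3 : ((P1 * P2 * (P1 * P2 * (P1 * P2 * (P1 * P2)))) (⟨47, by decide⟩ : Fin 48) : R) = (⟨0, by decide⟩ : Fin 48) := by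
    apply Fin.ext
    decide
  rw [if_pos (by rw [h3]; rfl)] at h2
  exact h2

theorem entry_ne {u h v : GL chevF4.Idx K} (hu : u ∈ GA K posB) (hh : h ∈ chevF4.diagonalSubgroup K)
    (hv : v ∈ GA K posB) : ((u * h * w0 K * v : GL chevF4.Idx K) : Matrix chevF4.Idx chevF4.Idx K) lo hi ≠ 0 := by
  rw [Cfsg.Agent.ChevalleyStructure.TwF4.Torus.diagonal_eq_range] at hh
  obtain ⟨c, rfl⟩ := hh
  rw [← entry_eq ((u * _ * w0 K * v : GL chevF4.Idx K) : Matrix chevF4.Idx chevF4.Idx K), Units.val_mul,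
    ← Matrix.mulVec_mulVec]
  have h1 : (v : Matrix chevF4.Idx chevF4.Idx K).mulVec (Pi.single hi 1) = Pi.single hi 1 := (pos_fix hv).1
  have h2 : Matrix.vecMul (Pi.single lo 1) (u : Matrix chevF4.Idx chevF4.Idx K) = Pi.single lo 1 := (pos_fix hu).2
  rw [h1, mul_assoc, Units.val_mul, ← Matrix.mulVec_mulVec, Matrix.dotProduct_mulVec, h2, entry_eq, Units.val_mul,
    Cfsg.Agent.ChevalleyStructure.TwF4.Torus.coe_T, Matrix.diagonal_mul, w0_entry, mul_one]
  exact Units.ne_zero _

theorem w0_conj [Finite K] {u : GL chevF4.Idx K} (hu : u ∈ GA K posB) : w0 K * u * (w0 K)⁻¹ ∈ GA K negB := by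
  have hwA : Act (w0 K) (fun r => w1 (w2 (w1 (w2 (w1 (w2 (w1 (w2 r)))))))) := Cfsg.Agent.KFacts.TwF4.Inst.Act_rot4
  refine Act_conj hwA ?_ u hu
  intro r hr hA
  have h5 := List.all_eq_true.1 Cfsg.Agent.KFacts.TwF4.Inst.p4_neg r (List.mem_range.2 hr)
  have h6 : 24 ≤ r := of_decide_eq_true hA
  simp only [Bool.or_eq_true, decide_eq_true_eq] at h5
  exact decide_eq_true (h5.resolve_left (by omega))

theorem cell_inj [Finite K] {u h v u' h' v' : GL chevF4.Idx K} (hu : u ∈ GA K posB) (hh : h ∈ chevF4.diagonalSubgroup K)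
    (hv : v ∈ GA K posB) (hu' : u' ∈ GA K posB) (hh' : h' ∈ chevF4.diagonalSubgroup K) (hv' : v' ∈ GA K posB)
    (e : u * h * w0 K * v = u' * h' * w0 K * v') : u = u' ∧ h = h' ∧ v = v' := by
  have h1 : w0 K * (v * v'⁻¹) * (w0 K)⁻¹ = (u * h)⁻¹ * (u' * h') := by
    calc w0 K * (v * v'⁻¹) * (w0 K)⁻¹ = (u * h)⁻¹ * (u * h * w0 K * v) * v'⁻¹ * (w0 K)⁻¹ := by group
      _ = (u * h)⁻¹ * (u' * h' * w0 K * v') * v'⁻¹ * (w0 K)⁻¹ := by rw [e]
      _ = _ := by group
  have hb : ∀ {u h : GL chevF4.Idx K}, u ∈ GA K posB → h ∈ chevF4.diagonalSubgroup K →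
      u * h ∈ chevF4.borelSubgroup K := by
    intro u h hu hh
    refine mul_mem (Subgroup.mem_sup_left ?_) (Subgroup.mem_sup_right hh)
    rw [posUnipotent_eq]; exact hu
  have h2 : (u * h)⁻¹ * (u' * h') ∈ chevF4.borelSubgroup K := mul_mem (inv_mem (hb hu hh)) (hb hu' hh')
  have h3 : (u * h)⁻¹ * (u' * h') ∈ GA K negB := by
    rw [← h1]
    exact w0_conj (mul_mem hv (inv_mem hv'))
  have h4 := borel_inf_negB _ h2 h3
  have h5 : u * h = u' * h' := by
    have := congrArg (fun x => u * h * x) h4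
    simpa [mul_assoc] using this.symm
  have h6 : u'⁻¹ * u = h' * h⁻¹ := by
    calc u'⁻¹ * u = u'⁻¹ * (u * h) * h⁻¹ := by group
      _ = u'⁻¹ * (u' * h') * h⁻¹ := by rw [h5]
      _ = _ := by group
  have h7 : u'⁻¹ * u = 1 := pos_inf_H _ (mul_mem (inv_mem hu') hu) (by rw [h6]; exact mul_mem hh' (inv_mem hh))
  have h8 : u = u' := (inv_mul_eq_one.1 h7).symm
  have h9 : h' * h⁻¹ = 1 := by rw [← h6, h7]
  refine ⟨h8, (mul_inv_eq_one.1 h9).symm, ?_⟩
  rw [h4, mul_inv_eq_one] at h1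
  have h10 : w0 K * (v * v'⁻¹) = w0 K * 1 := by rw [h1, mul_one]
  exact mul_inv_eq_one.1 (mul_left_cancel h10)

/-! ### the polynomial matrix -/

/-- the matrix of polynomials -/
noncomputable def PM (K : Type*) [Field K] (N : ℕ) : Matrix chevF4.Idx chevF4.Idx K[X] := Matrix.of fun i j =>
  C ((1 : Matrix chevF4.Idx chevF4.Idx K) i j) + C (semS pos K (Els 44) i j) * X + C (semS pos K (Fls 44) i j) * X ^ 2 +
  C (semS pos K (Els 47) i j) * X ^ N + C ((semS pos K (Els 44) * semS pos K (Els 47)) i j) * X ^ (N + 1) +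
  C ((semS pos K (Fls 44) * semS pos K (Els 47)) i j) * X ^ (N + 2) + C (semS pos K (Fls 47) i j) * X ^ (2 * N)

theorem PM_natDegree {N : ℕ} (hN : 3 ≤ N) (i j : chevF4.Idx) : (PM K N i j).natDegree ≤ 2 * N := by
  have hC : ∀ (a : K) (n : ℕ), n ≤ 2 * N → (C a * X ^ n : K[X]).natDegree ≤ 2 * N := fun a n hn =>
    (natDegree_C_mul_X_pow_le a n).trans hn
  unfold PM
  rw [Matrix.of_apply]
  refine natDegree_add_le_of_degree_le (natDegree_add_le_of_degree_le (natDegree_add_le_of_degree_le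
    (natDegree_add_le_of_degree_le (natDegree_add_le_of_degree_le (natDegree_add_le_of_degree_le ?_ ?_) ?_) ?_) ?_) ?_)
    (hC _ _ le_rfl)
  · rw [natDegree_C]; exact Nat.zero_le _
  · have := hC (semS pos K (Els 44) i j) 1 (by omega)
    rwa [pow_one] at this
  · exact hC _ _ (by omega)
  · exact hC _ _ (by omega)
  · exact hC _ _ (by omega)
  · exact hC _ _ (by omega)

theorem PM_coeff {N : ℕ} (hN : 3 ≤ N) (i j : chevF4.Idx) : (PM K N i j).coeff (2 * N) = semS pos K (Fls 47) i j := by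
  have hC : ∀ (a : K) (n : ℕ), n ≠ 2 * N → (C a * X ^ n : K[X]).coeff (2 * N) = 0 := fun a n hn => by
    rw [coeff_C_mul_X_pow, if_neg hn.symm]
  unfold PM
  rw [Matrix.of_apply]
  simp only [coeff_add]
  have h1 := hC (semS pos K (Els 44) i j) 1 (by omega)
  rw [pow_one] at h1
  rw [coeff_C_of_ne_zero (by omega), h1, hC _ _ (by omega), hC _ _ (by omega), hC _ _ (by omega), hC _ _ (by omega),
    coeff_C_mul_X_pow, if_pos rfl]
  simp

theorem Fls47 (i j : chevF4.Idx) : semS pos K (Fls 47) i j = if i = hi ∧ j = lo then 1 else 0 := by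
  rw [semS_apply]
  show (List.map (fun e : ℕ × ℕ => if e.1 = pos i ∧ e.2 = pos j then (1 : K) else 0) [(51, 4)]).sum = _
  rw [List.map_cons, List.map_nil, List.sum_cons, List.sum_nil, add_zero]
  by_cases h : i = hi ∧ j = lo
  · obtain ⟨rfl, rfl⟩ := h
    rw [if_pos ⟨rfl, rfl⟩, if_pos ⟨rfl, rfl⟩]
  · rw [if_neg h, if_neg]
    rintro ⟨h1, h2⟩
    exact h ⟨posOK.inj (h1.symm.trans pos_hi.symm), posOK.inj (h2.symm.trans pos_lo.symm)⟩

theorem mul_Fls47 {A : Matrix chevF4.Idx chevF4.Idx K} (hA : ∀ i, A i hi = 0) : A * semS pos K (Fls 47) = 0 := by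
  ext i j
  rw [Matrix.mul_apply, Matrix.zero_apply]
  refine Finset.sum_eq_zero fun k _ => ?_
  rw [Fls47]
  by_cases hk : k = hi
  · rw [hk, hA, zero_mul]
  · rw [if_neg (fun h => hk h.1), mul_zero]

theorem PM_eval (N : ℕ) (s : K) : (PM K N).map (Polynomial.eval s) = chevF4.x K 44 s * chevF4.x K 47 (s ^ N) := by
  rw [x_eq 44 (by norm_num), x_eq 47 (by norm_num)]
  have h := tab_col
  have h44 := List.all_eq_true.1 h 44 (List.mem_range.2 (by norm_num))
  rw [Bool.or_eq_true] at h44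
  have h44 := h44.resolve_left (by decide)
  simp only [Bool.and_eq_true] at h44
  obtain ⟨⟨⟨h1, h2⟩, h3⟩, h4⟩ := h44
  have e1 : semS pos K (Els 44) * semS pos K (Fls 47) = 0 := mul_Fls47 fun i => semS_col h1 i
  have e2 : semS pos K (Fls 44) * semS pos K (Fls 47) = 0 := mul_Fls47 fun i => semS_col h2 i
  have e3 : (1 + s • semS pos K (Els 44) + s ^ 2 • semS pos K (Fls 44)) *
      (1 + s ^ N • semS pos K (Els 47) + (s ^ N) ^ 2 • semS pos K (Fls 47)) =
      1 + s • semS pos K (Els 44) + s ^ 2 • semS pos K (Fls 44) + s ^ N • semS pos K (Els 47) +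
      s ^ (N + 1) • (semS pos K (Els 44) * semS pos K (Els 47)) +
      s ^ (N + 2) • (semS pos K (Fls 44) * semS pos K (Els 47)) + s ^ (2 * N) • semS pos K (Fls 47) := by
    simp only [add_mul, mul_add, one_mul, mul_one, Matrix.smul_mul, Matrix.mul_smul, e1, e2, smul_zero, add_zero,
      smul_smul]
    have k3 : (s ^ N) ^ 2 = s ^ (2 * N) := by rw [← pow_mul, mul_comm]
    have k1' : s ^ N * s = s ^ (N + 1) := by rw [pow_succ]
    have k2' : s ^ N * s ^ 2 = s ^ (N + 2) := by rw [pow_add]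
    simp only [k3, k1', k2']
    abel
  rw [e3]
  ext i j
  rw [Matrix.map_apply]
  unfold PM
  rw [Matrix.of_apply]
  simp only [eval_add, eval_mul, eval_C, eval_X, eval_pow, Matrix.add_apply, Matrix.smul_apply, smul_eq_mul]
  ring

end Cfsg.Agent.H753.Rg.TwF4
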